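import Cfsg.Agent.Characters.Core

/-!
# A class function given by a table of values (helper164)

`T` a finite group, `s : ι → T` representatives of pairwise different conjugacy classes with centralizers of order
`n i`; `fn s th` is the class function with the value `th i` on the class of `s i` and `0` outside of these classes.
`inner_fn` : the inner product of a class function `f` with `fn s th` is `∑ i, f (s i) * th i / n i`.
`irr_of_gen` : if `fn s th` is a generalized character, has norm `1` and a positive degree, it is irreducible.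
-/

set_option autoImplicit false

open Cfsg
open Cfsg.Agent.Characters.Core
open scoped ComplexConjugate

namespace Cfsg.Agent.H164.M23.Theta

universe v

variable {T : Type v} [Group T] {ι : Type*} [Fintype ι]

open Classical in
/-- the value `th i` on the class of `s i`, `0` outside of these classes -/
noncomputable def fn (s : ι → T) (th : ι → ℤ) : T → ℂ :=
  fun x => ∑ i, if IsConj (s i) x then (th i : ℂ) else 0

theorem isClassFunction_fn (s : ι → T) (th : ι → ℤ) : IsClassFunction T (fn s th) := by
  classical
  intro g h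
  unfold fn
  refine Finset.sum_congr rfl fun i _ => ?_
  have h1 : IsConj (s i) (h * g * h⁻¹) ↔ IsConj (s i) g := by
    have h2 : IsConj g (h * g * h⁻¹) := isConj_iff.2 ⟨h, rfl⟩
    exact ⟨fun h3 => h3.trans h2.symm, fun h3 => h3.trans h2⟩
  by_cases h3 : IsConj (s i) g
  · rw [if_pos (h1.2 h3), if_pos h3]
  · rw [if_neg (fun h4 => h3 (h1.1 h4)), if_neg h3]

theorem fn_of_isConj {s : ι → T} {th : ι → ℤ} (hs : ∀ i j, IsConj (s i) (s j) → i = j) {i : ι} {x : T}
    (h : IsConj (s i) x) : fn s th x = th i := by
  classical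
  unfold fn
  rw [Finset.sum_eq_single i, if_pos h]
  · intro j _ hj
    rw [if_neg fun h1 => hj (hs j i (h1.trans h.symm))]
  · intro h1
    exact absurd (Finset.mem_univ i) h1

theorem fn_apply {s : ι → T} {th : ι → ℤ} (hs : ∀ i j, IsConj (s i) (s j) → i = j) (i : ι) : fn s th (s i) = th i :=
  fn_of_isConj hs (IsConj.refl _)

theorem fn_zero {s : ι → T} {th : ι → ℤ} {x : T} (h : ∀ i, ¬ IsConj (s i) x) : fn s th x = 0 := by
  classical
  unfold fn
  exact Finset.sum_eq_zero fun i _ => if_neg (h i)

theorem conj_fn (s : ι → T) (th : ι → ℤ) (x : T) : conj (fn s th x) = fn s th x := by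
  classical
  unfold fn
  rw [map_sum]
  refine Finset.sum_congr rfl fun i _ => ?_
  split_ifs
  · exact map_intCast _ _
  · exact map_zero _

/-- the values of `fn` are integers -/
theorem fn_int (s : ι → T) (th : ι → ℤ) (x : T) : ∃ k : ℤ, fn s th x = k := by
  classical
  refine ⟨∑ i, if IsConj (s i) x then th i else 0, ?_⟩
  unfold fn
  push_cast
  rfl

/-- the function `fn` is the only class function with these values -/
theorem eq_fn {s : ι → T} {th : ι → ℤ} (hs : ∀ i j, IsConj (s i) (s j) → i = j) {θ : T → ℂ}
    (hθ : IsClassFunction T θ) (hv : ∀ i, θ (s i) = th i) (h0 : ∀ x, (∀ i, ¬ IsConj (s i) x) → θ x = 0) :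
    θ = fn s th := by
  funext x
  by_cases h : ∃ i, IsConj (s i) x
  · obtain ⟨i, hi⟩ := h
    rw [fn_of_isConj hs hi, ← hv i, classFunction_apply_eq hθ hi.symm]
  · push Not at h
    rw [h0 x h, fn_zero h]

theorem card_conj [Finite T] (x : T) :
    Nat.card {y : T // IsConj x y} * Nat.card (Subgroup.centralizer ({x} : Set T)) = Nat.card T := by
  have h1 : Nat.card {g : T // IsConj x g} = Nat.card (MulAction.orbit (ConjAct T) x) := by
    refine Nat.card_congr (Equiv.subtypeEquivRight fun g => ?_)
    rw [ConjAct.mem_orbit_conjAct, isConj_comm]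
  rw [h1, Subgroup.nat_card_centralizer_nat_card_stabilizer, ← Nat.card_prod]
  exact Nat.card_congr (MulAction.orbitProdStabilizerEquivGroup (ConjAct T) x)

/-- **The inner product with the table function.** -/
theorem inner_fn [Fintype T] {s : ι → T} {th : ι → ℤ} {n : ι → ℕ}
    (hn : ∀ i, Nat.card (Subgroup.centralizer ({s i} : Set T)) = n i) {f : T → ℂ} (hf : IsClassFunction T f) :
    classInner f (fn s th) = ∑ i, f (s i) * th i / n i := by
  classical
  have h0 : (Nat.card T : ℂ) ≠ 0 := card_ne_zero_complex
  rw [classInner_def]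
  have h1 : ∑ g : T, f g * conj (fn s th g) = ∑ i, (Nat.card {y : T // IsConj (s i) y} : ℂ) * (f (s i) * th i) := by
    have h2 : ∀ g : T, f g * conj (fn s th g) = ∑ i, if IsConj (s i) g then f (s i) * (th i : ℂ) else 0 := by
      intro g
      rw [conj_fn]
      unfold fn
      rw [Finset.mul_sum]
      refine Finset.sum_congr rfl fun i _ => ?_
      split_ifs with h3
      · rw [classFunction_apply_eq hf h3]
      · rw [mul_zero]
    rw [Finset.sum_congr rfl fun g _ => h2 g, Finset.sum_comm]
    refine Finset.sum_congr rfl fun i _ => ?_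
    rw [← Finset.sum_filter, Finset.sum_const, nsmul_eq_mul, Nat.card_eq_fintype_card, Fintype.card_subtype]
  rw [h1, Finset.mul_sum]
  refine Finset.sum_congr rfl fun i _ => ?_
  have h3 := card_conj (s i)
  rw [hn i] at h3
  have h4 : (n i : ℂ) ≠ 0 := by
    intro h5
    rw [Nat.cast_eq_zero] at h5
    rw [h5, mul_zero] at h3
    exact h0 (by rw [← h3, Nat.cast_zero])
  have h6 : (Nat.card {y : T // IsConj (s i) y} : ℂ) ≠ 0 := by
    intro h5
    rw [Nat.cast_eq_zero] at h5
    rw [h5, zero_mul] at h3
    exact h0 (by rw [← h3, Nat.cast_zero])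
  rw [← h3, Nat.cast_mul]
  field_simp

/-- the norm -/
theorem norm_fn [Fintype T] {s : ι → T} {th : ι → ℤ} {n : ι → ℕ} (hs : ∀ i j, IsConj (s i) (s j) → i = j)
    (hn : ∀ i, Nat.card (Subgroup.centralizer ({s i} : Set T)) = n i) :
    classInner (fn s th) (fn s th) = ∑ i, (th i : ℂ) * th i / n i := by
  rw [inner_fn hn (isClassFunction_fn s th)]
  refine Finset.sum_congr rfl fun i _ => ?_
  rw [fn_apply hs]

/-- a generalized character of norm `1` and positive degree is irreducible -/
theorem irr_of_gen [Fintype T] {θ : T → ℂ} (hg : IsGeneralizedCharacter T θ) (h1 : classInner θ θ = 1) {d : ℕ}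
    (hd : θ 1 = d) : IsIrrCharacter T θ := by
  rcases isIrr_of_generalized hg h1 with h | h
  · exact h
  · obtain ⟨m, hm0, hm⟩ := isIrr_apply_one h
    exfalso
    rw [Pi.neg_apply, hd] at hm
    have h2 : (m : ℂ) + d = 0 := by rw [← hm]; ring
    have h3 : m + d = 0 := by exact_mod_cast h2
    omega

end Cfsg.Agent.H164.M23.Theta
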