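import Cfsg.Agent.H164.M23.Theta

/-!
# The character of degree `2375000` of `HN` given by its table (helper164)

`T = HN` in `C_M(u) = ⟨u⟩ × T`, `u ∈ 5A`.  The `15` classes of `T` on which the character does not vanish are listed in
the order of the `u`-classes `5A, 10A, 10B, 15A, 15B, 20A, 30B, 30C, 35A, 45A, 55A, 60B, 70A, 105A, 110A` of the Monster,
that is `1A, 2A, 2B, 3A, 3B, 4A, 6A, 6C, 7A, 9A, 11A, 12A?, 14A, 21A, 22A` of `HN`.

* `irr` (H7) : the table function is an irreducible character if it is a generalized character;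
* `inner` (H8) : the inner product of `s ↦ (V (u s)^4 + 3 V ((u s)^2)^2 - 4 V (u s) V ((u s)^3)) / 12` with it is `1`.
-/

set_option autoImplicit false

open Cfsg
open Cfsg.Agent.Characters.Core
open scoped ComplexConjugate

namespace Cfsg.Agent.H164.M23.ThetaHN

open Cfsg.Agent.H164.M23.Theta

universe v

/-- the orders of the centralizers in `T` -/
def n : Fin 15 → ℕ :=
  ![273030912000000, 177408000, 3686400, 544320, 29160, 15360, 1440, 576, 420, 27, 22, 48, 28, 21, 22]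

/-- the values of the character -/
def th : Fin 15 → ℤ := ![2375000, -1000, 600, -190, 80, 40, -10, -6, 5, -1, 1, -2, 1, -1, 1]

/-- `V (u s)`, `V` the character of degree `196883` of the Monster -/
def v1 : Fin 15 → ℤ := ![133, 21, 5, 7, -2, 5, 3, -1, 0, 1, 1, -1, 0, 0, -1]

/-- `V ((u s)^2)` -/
def v2 : Fin 15 → ℤ := ![133, 133, 133, 7, -2, 5, 7, 7, 0, 1, 1, -1, 0, 0, 1]

/-- `V ((u s)^3)` -/
def v3 : Fin 15 → ℤ := ![133, 21, 5, 133, 133, 5, 21, 5, 0, -2, 1, 5, 0, 0, -1]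

/-- the norm is `1` -/
theorem norm_sum : ∑ i, (th i : ℂ) * th i / n i = 1 := by
  have h : ∑ i, (th i : ℚ) * th i / n i = 1 := by decide +kernel
  have h2 : ((∑ i, (th i : ℚ) * th i / n i : ℚ) : ℂ) = ((1 : ℚ) : ℂ) := by rw [h]
  push_cast at h2
  exact h2

/-- the inner product is `1` -/
theorem inner_sum : ∑ i, ((v1 i : ℂ) ^ 4 + 3 * (v2 i : ℂ) ^ 2 - 4 * ((v1 i : ℂ) * v3 i)) / 12 * th i / n i = 1 := by
  have h : ∑ i, ((v1 i : ℚ) ^ 4 + 3 * (v2 i : ℚ) ^ 2 - 4 * ((v1 i : ℚ) * v3 i)) / 12 * th i / n i = 1 := by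
    decide +kernel
  have h2 : ((∑ i, ((v1 i : ℚ) ^ 4 + 3 * (v2 i : ℚ) ^ 2 - 4 * ((v1 i : ℚ) * v3 i)) / 12 * th i / n i : ℚ) : ℂ) =
      ((1 : ℚ) : ℂ) := by rw [h]
  push_cast at h2
  exact h2

variable {T : Type v} [Group T]

/-- the norm of the table function is `1` -/
theorem norm_one [Fintype T] {s : Fin 15 → T} (hs : ∀ i j, IsConj (s i) (s j) → i = j)
    (hn : ∀ i, Nat.card (Subgroup.centralizer ({s i} : Set T)) = n i) :
    classInner (fn s th) (fn s th) = 1 := by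
  rw [norm_fn hs hn]
  exact norm_sum

/-- **(H7)** the table function is an irreducible character if it is a generalized character -/
theorem irr_fn [Fintype T] {s : Fin 15 → T} (hs : ∀ i j, IsConj (s i) (s j) → i = j)
    (hn : ∀ i, Nat.card (Subgroup.centralizer ({s i} : Set T)) = n i) (h0 : s 0 = 1)
    (hg : IsGeneralizedCharacter T (fn s th)) : IsIrrCharacter T (fn s th) := by
  refine irr_of_gen (d := 2375000) hg (norm_one hs hn) ?_
  rw [← h0, fn_apply hs]
  norm_num [th]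

/-- **(H7)** for a function `θ` with these values -/
theorem irr [Fintype T] {s : Fin 15 → T} (hs : ∀ i j, IsConj (s i) (s j) → i = j)
    (hn : ∀ i, Nat.card (Subgroup.centralizer ({s i} : Set T)) = n i) (h0 : s 0 = 1) {θ : T → ℂ}
    (hg : IsGeneralizedCharacter T θ) (hv : ∀ i, θ (s i) = th i) (hz : ∀ x, (∀ i, ¬ IsConj (s i) x) → θ x = 0) :
    IsIrrCharacter T θ := by
  have hθ : IsClassFunction T θ := by
    obtain ⟨χ, ψ, hχ, hψ, rfl⟩ := hg
    intro g h
    rw [Pi.sub_apply, Pi.sub_apply, isCharacter_isClassFunction hχ, isCharacter_isClassFunction hψ]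
  have h1 := eq_fn hs hθ hv hz
  rw [h1] at hg ⊢
  exact irr_fn hs hn h0 hg

/-- **(H8)** -/
theorem inner {G : Type v} [Group G] {T : Subgroup G} [Fintype T] {u : G} (hu : ∀ x ∈ T, x * u * x⁻¹ = u)
    {s : Fin 15 → T} (hs : ∀ i j, IsConj (s i) (s j) → i = j)
    (hn : ∀ i, Nat.card (Subgroup.centralizer ({s i} : Set T)) = n i) {θ : T → ℂ} (hθ : IsClassFunction T θ)
    (hv : ∀ i, θ (s i) = th i) (hz : ∀ x, (∀ i, ¬ IsConj (s i) x) → θ x = 0) {V : G → ℂ} (hV : IsClassFunction G V)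
    (h1 : ∀ i, V (u * s i) = v1 i) (h2 : ∀ i, V ((u * s i) ^ 2) = v2 i) (h3 : ∀ i, V ((u * s i) ^ 3) = v3 i) :
    classInner (fun x : T => (V (u * x) ^ 4 + 3 * V ((u * x) ^ 2) ^ 2 - 4 * (V (u * x) * V ((u * x) ^ 3))) / 12) θ =
      ((1 : ℤ) : ℂ) := by
  have hc : ∀ x y : T, u * ((y * x * y⁻¹ : T) : G) = y * (u * x) * (y : G)⁻¹ := by
    intro x y
    have h4 : (y : G) * u = u * y := by
      have h5 := hu y y.2
      calc (y : G) * u = (y * u * (y : G)⁻¹) * y := by group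
        _ = u * y := by rw [h5]
    push_cast
    calc u * (y * x * (y : G)⁻¹) = (u * y) * x * (y : G)⁻¹ := by group
      _ = (y * u) * x * (y : G)⁻¹ := by rw [h4]
      _ = y * (u * x) * (y : G)⁻¹ := by group
  have hp : ∀ (k : ℕ) (x y : T), V ((u * ((y * x * y⁻¹ : T) : G)) ^ k) = V ((u * x) ^ k) := by
    intro k x y
    rw [hc, conj_pow, hV]
  have hf : IsClassFunction T
      (fun x : T => (V (u * x) ^ 4 + 3 * V ((u * x) ^ 2) ^ 2 - 4 * (V (u * x) * V ((u * x) ^ 3))) / 12) := by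
    intro x y
    have h4 := hp 1 x y
    have h5 := hp 2 x y
    have h6 := hp 3 x y
    rw [pow_one, pow_one] at h4
    simp only [h4, h5, h6]
  rw [eq_fn hs hθ hv hz, inner_fn hn hf]
  simp only [h1, h2, h3]
  rw [inner_sum, Int.cast_one]

end Cfsg.Agent.H164.M23.ThetaHN
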