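import Cfsg.Agent.H164.M23.ThetaHN
import Cfsg.Agent.H651.HNF.Table

/-!
# (M,23): H7 and H8 from the class table of `HN` (helper164)

`Table H ty` : the class table (helper651).  `F ty g = θ`-value of the type of `g`.

* `inner_ty` : the inner product of a function of the type with `F ty`;
* `irr_ty` (H7) : `F ty` is irreducible if it is a generalized character;
* `schur_ty` (H8) : `⟨S_22(β), F ty⟩ = 1`, `β y = V (u y)`.
-/

set_option autoImplicit false

open Cfsg
open Cfsg.Agent.Characters.Core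
open scoped ComplexConjugate

namespace Cfsg.Agent.H164.M23.ThetaTab

open Cfsg.Agent.H651.HNF

universe v

/-- a rational class function: `V ((u y)^k) = V (u y^k)` -/
theorem apply_pow {G : Type v} [Group G] [Finite G] {V : G → ℂ}
    (hV : ∀ (g : G) (l : ℕ), l.Coprime (orderOf g) → V (g ^ l) = V g) {u y : G} (hu : orderOf u = 5)
    (hc : Commute u y) (hy : Nat.Coprime (orderOf y) 5) {k : ℕ} (hk : Nat.Coprime k 5) :
    V ((u * y) ^ k) = V (u * y ^ k) := by
  have h0 : Nat.Coprime 5 (orderOf (y ^ k)) := (Nat.Coprime.coprime_dvd_left (orderOf_pow_dvd k) hy).symm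
  obtain ⟨l, hl1, hl2⟩ := Nat.chineseRemainder h0 k 1
  have hc2 : Commute u (y ^ k) := hc.pow_right k
  have h1 : orderOf (u * y ^ k) = 5 * orderOf (y ^ k) := by
    rw [hc2.orderOf_mul_eq_mul_orderOf_of_coprime (by rw [hu]; exact h0), hu]
  have h2 : l.Coprime (orderOf (u * y ^ k)) := by
    rw [h1]
    refine Nat.Coprime.mul_right ?_ ?_
    · rw [Nat.Coprime, hl1.gcd_eq]
      exact hk
    · rw [Nat.Coprime, hl2.gcd_eq]
      exact Nat.gcd_one_left _
  have h3 : (u * y ^ k) ^ l = (u * y) ^ k := by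
    rw [hc2.mul_pow, hc.mul_pow]
    congr 1
    · rw [pow_eq_pow_iff_modEq, hu]
      exact hl1
    · conv_rhs => rw [← pow_one (y ^ k)]
      rw [pow_eq_pow_iff_modEq]
      exact hl2
  rw [← h3, hV _ _ h2]

/-- the table of an isomorphic group -/
theorem Table.transfer {H T : Type} [Group H] [Group T] {ty : H → Ty} (h : Table H ty) (e : T ≃* H) :
    Table T (fun g => ty (e g)) := by
  have ho : ∀ g : T, orderOf (e g) = orderOf g := fun g => orderOf_injective e.toMonoidHom e.injective g
  have hconj : ∀ g k : T, IsConj (e g) (e k) ↔ IsConj g k := by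
    intro g k
    rw [isConj_iff, isConj_iff]
    constructor
    · rintro ⟨c, hc⟩
      refine ⟨e.symm c, e.injective ?_⟩
      rw [map_mul, map_mul, map_inv, e.apply_symm_apply, hc]
    · rintro ⟨c, hc⟩
      exact ⟨e c, by rw [← map_mul, ← map_inv, ← map_mul, hc]⟩
  refine ⟨?_, ?_, ?_, ?_, ?_, ?_, ?_, ?_, ?_⟩
  · rw [Nat.card_congr e.toEquiv, h.card]
  · intro g
    rw [h.sing, ho]
  · intro g hg
    rw [← ho]
    exact h.ord _ hg
  · intro g hg
    rw [← h.cent _ hg]
    refine Nat.card_congr (Equiv.subtypeEquiv e.toEquiv fun x => ?_)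
    simp only [Subgroup.mem_centralizer_singleton_iff]
    constructor
    · intro hx
      change e x * e g = e g * e x
      rw [← map_mul, hx, map_mul]
    · intro hx
      refine e.injective ?_
      rw [map_mul, map_mul]
      exact hx
  · intro g k hgk
    exact h.inv _ _ ((hconj g k).2 hgk)
  · intro g k hgk h1 h2
    exact (hconj g k).1 (h.conj _ _ hgk h1 h2)
  · intro g p hp hg
    rw [map_pow]
    exact h.pow _ p hp hg
  · intro g hg m hm
    rw [map_pow]
    exact h.real _ hg m (by rw [ho]; exact hm)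
  · intro t ht
    rw [← h.num t ht]
    exact Nat.card_congr (Equiv.subtypeEquiv e.toEquiv fun x => Iff.rfl)

/-- `θ` as a function of the type -/
noncomputable def F {H : Type} (ty : H → Ty) : H → ℂ := fun g => ((ty g).th : ℂ)

theorem isClassFunction_F {H : Type} [Group H] {ty : H → Ty} (h : Table H ty) : IsClassFunction H (F ty) := by
  intro g k
  unfold F
  rw [h.inv g (k * g * k⁻¹) (isConj_iff.2 ⟨k, rfl⟩)]

/-- **the inner product of a function of the type with `θ`** -/
theorem inner_ty {H : Type} [Group H] [Fintype H] {ty : H → Ty} (h : Table H ty) {f : H → ℂ} {a : Ty → ℚ}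
    (hf : ∀ g, ty g ≠ .sing → f g = a (ty g)) {k : ℚ}
    (hk : ∑ t : Ty, a t * t.th * t.num = k * 273030912000000) : classInner f (F ty) = k := by
  classical
  rw [classInner_def, h.card]
  have h1 : ∑ g : H, f g * conj (F ty g) = ((∑ t : Ty, a t * t.th * t.num : ℚ) : ℂ) := by
    rw [← Finset.sum_fiberwise (s := Finset.univ) (g := ty)]
    push_cast
    refine Finset.sum_congr rfl fun t _ => ?_
    by_cases ht : t = .sing
    · subst ht
      have h2 : ∀ g ∈ Finset.univ.filter (fun g => ty g = Ty.sing), f g * conj (F ty g) = 0 := by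
        intro g hg
        rw [Finset.mem_filter] at hg
        unfold F
        rw [hg.2]
        simp [Ty.th]
      rw [Finset.sum_eq_zero h2]
      simp [Ty.th]
    · have h2 : ∀ g ∈ Finset.univ.filter (fun g => ty g = t), f g * conj (F ty g) = (a t : ℂ) * (t.th : ℂ) := by
        intro g hg
        rw [Finset.mem_filter] at hg
        unfold F
        rw [hf g (by rw [hg.2]; exact ht), hg.2, map_intCast]
      rw [Finset.sum_congr rfl h2, Finset.sum_const, nsmul_eq_mul]
      have h3 : (Finset.univ.filter (fun g => ty g = t)).card = t.num := by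
        rw [← h.num t ht, Nat.card_eq_fintype_card, Fintype.card_subtype]
      rw [h3]
      ring
  rw [h1, hk]
  push_cast
  ring

/-- the norm is `1` -/
theorem norm_F {H : Type} [Group H] [Fintype H] {ty : H → Ty} (h : Table H ty) : classInner (F ty) (F ty) = 1 := by
  have h1 := inner_ty h (f := F ty) (a := fun t => (t.th : ℚ)) (k := 1) (fun g _ => by unfold F; push_cast; rfl)
    (by decide +kernel)
  rw [h1]
  norm_num

/-- **(H7)** -/
theorem irr_ty {H : Type} [Group H] [Finite H] {ty : H → Ty} (h : Table H ty)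
    (hg : IsGeneralizedCharacter H (F ty)) : IsIrrCharacter H (F ty) := by
  have : Fintype H := Fintype.ofFinite H
  refine Theta.irr_of_gen (d := 2375000) hg (norm_F h) ?_
  have h1 : ty 1 ≠ .sing := by
    rw [ne_eq, h.sing, orderOf_one]
    norm_num
  have h2 := h.ord 1 h1
  rw [orderOf_one] at h2
  have h3 : ∀ t : Ty, t ≠ .sing → 1 = t.ord → t.th = 2375000 := by decide +kernel
  unfold F
  rw [h3 _ h1 h2]
  norm_num

/-- the schur function `S_22` of `β` as a function of the type -/
def schur (t : Ty) : ℚ := ((t.b : ℚ) ^ 4 + 3 * (t.sq.b : ℚ) ^ 2 - 4 * ((t.b : ℚ) * t.cu.b)) / 12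

theorem sum_schur : ∑ t : Ty, schur t * t.th * t.num = 1 * 273030912000000 := by decide +kernel

theorem sq_ne : ∀ t : Ty, t ≠ .sing → t.sq ≠ .sing := by decide +kernel

theorem cu_ne : ∀ t : Ty, t ≠ .sing → t.cu ≠ .sing := by decide +kernel

/-- **(H8)** `⟨S_22(β), θ⟩ = 1`, `β y = V (u y)` -/
theorem schur_ty {G : Type} [Group G] [Finite G] {T : Subgroup G} [Fintype T] {ty : T → Ty} (h : Table T ty) {u : G}
    (hu : orderOf u = 5) (hu2 : ∀ x : T, Commute u (x : G)) {V : G → ℂ}
    (hVr : ∀ (g : G) (l : ℕ), l.Coprime (orderOf g) → V (g ^ l) = V g)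
    (hb : ∀ s : T, ty s ≠ .sing → V (u * s) = (ty s).b) :
    classInner (fun s : T => (V (u * s) ^ 4 + 3 * V ((u * s) ^ 2) ^ 2 - 4 * (V (u * s) * V ((u * s) ^ 3))) / 12)
      (F ty) = ((1 : ℤ) : ℂ) := by
  rw [inner_ty h (a := schur) (k := 1) ?_ sum_schur]
  · norm_num
  intro s hs
  have h5 : ¬ 5 ∣ orderOf s := fun h5 => hs ((h.sing s).2 h5)
  have hy : Nat.Coprime (orderOf (s : G)) 5 := by
    rw [Subgroup.orderOf_coe, Nat.coprime_comm]
    exact (Nat.Prime.coprime_iff_not_dvd Nat.prime_five).2 h5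
  have h2 : ty (s ^ 2) = (ty s).sq := by
    rw [h.pow s 2 Nat.prime_two hs]
    rfl
  have h3 : ty (s ^ 3) = (ty s).cu := by
    rw [h.pow s 3 Nat.prime_three hs]
    rfl
  have e2 : V ((u * s) ^ 2) = (ty s).sq.b := by
    rw [apply_pow hVr hu (hu2 s) hy (by norm_num)]
    have h4 := hb (s ^ 2) (by rw [h2]; exact sq_ne _ hs)
    rw [h2] at h4
    rw [← h4]
    push_cast
    rfl
  have e3 : V ((u * s) ^ 3) = (ty s).cu.b := by
    rw [apply_pow hVr hu (hu2 s) hy (by norm_num)]
    have h4 := hb (s ^ 3) (by rw [h3]; exact cu_ne _ hs)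
    rw [h3] at h4
    rw [← h4]
    push_cast
    rfl
  change (V (u * s) ^ 4 + 3 * V ((u * s) ^ 2) ^ 2 - 4 * (V (u * s) * V ((u * s) ^ 3))) / 12 = _
  rw [e2, e3, hb s hs]
  unfold schur
  push_cast
  rfl

end Cfsg.Agent.H164.M23.ThetaTab
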